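import Cfsg.Agent.Lib.Helper3.L27.Bd
import Cfsg.Agent.Lib.Helper3.MatL2

set_option autoImplicit false
set_option maxRecDepth 100000

namespace Cfsg.Agent.Lib.Helper3.L27

open Cfsg.Agent.Lib.Helper11 Cfsg.Agent.Lib.Helper3 Matrix

set_option maxHeartbeats 0

instance factP : Fact (Nat.Prime 7) := ⟨by norm_num⟩

def AL : List (List (ZMod 7)) := [[1, 2], [6, 6]]
def BL : List (List (ZMod 7)) := [[0, 5], [4, 1]]
def frInvL : List (List (ZMod 7)) := [[6, 1], [2, 6]]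
def frAL : List (ZMod 7) := [1, 6]
def frBL : List ℕ := [3, 2]
def frI : Fin 8 := 0
def PT : ℕ := 0xc69859449048
def CS1 : ℕ := 0xd13aca
def CS2 : ℕ := 0x531765
def IMG1 : ℕ := 0x2d0d7c
def IMG2 : ℕ := 0xd79684
def pt (i : ℕ) : List (ZMod 7) := ptOf (fun x => (x : ZMod 7)) PT 3 2 i
def witJ : Fin 2 := 0
def witK : Fin 2 := 0

theorem chk1 : genChkW [AL] pt (fun i => (fun x => (x : ZMod 7)) (tb CS1 3 i)) (tb IMG1 3) ntl 1 8 := by
  decide +kernel
theorem chk2 : genChkW [BL] pt (fun i => (fun x => (x : ZMod 7)) (tb CS2 3 i)) (tb IMG2 3) ntl 2 8 := by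
  decide +kernel

end Cfsg.Agent.Lib.Helper3.L27
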